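import Groth.Agent.Ega43.ClosedLocus
import Groth.Agent.Flat2D.ConstrGen

/-!
# The locus where the fibres of a constructible set are dense in those of another one, affine case
-/

set_option autoImplicit false

open TensorProduct Topology PrimeSpectrum

namespace Groth.Agent.Ega4fib.H146.DenseLocus

open Groth.Agent.Ega43.ConsCrit Groth.Agent.Ega43.SpreadNZD Groth.Agent.Ega43.ClosedLocus
open Groth.Agent.Flat2D.ConstrGen

universe u

variable {R B : Type u} [CommRing R] [CommRing B] [Algebra R B]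

/-- Spreading out of the closure of a point of the constructible set `Z`. -/
theorem exists_spread [Algebra.FinitePresentation R B] {Z : Set (PrimeSpectrum B)}
    (hZ : IsConstructible Z) {p : PrimeSpectrum R} {z : PrimeSpectrum B} (hz : z ∈ Z)
    (hzp : comap (algebraMap R B) z = p) :
    ∃ s : Set B, s.Finite ∧
      (∀ q : PrimeSpectrum B, comap (algebraMap R B) q = p → (q ∈ zeroLocus s ↔ z ⤳ q)) ∧
      ∃ V : Set (PrimeSpectrum R), IsConstructible V ∧ p ∈ V ∧
        ∀ t ∈ V, ∀ x : PrimeSpectrum B, x ∈ zeroLocus s → comap (algebraMap R B) x = t →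
          ∃ z' ∈ Z, z' ⤳ x ∧ comap (algebraMap R B) z' = t := by
  have hfp := RingHom.finitePresentation_algebraMap.mpr
    (inferInstance : Algebra.FinitePresentation R B)
  obtain ⟨S, rfl⟩ := PrimeSpectrum.exists_constructibleSetData_iff.mpr hZ
  obtain ⟨c, hc, hzc⟩ := Set.mem_iUnion₂.mp hz
  obtain ⟨hzg, hzf⟩ := hzc
  have hzf : c.f ∉ z.asIdeal := by simpa using hzf
  obtain ⟨s, hs, hsp⟩ := exists_generators p (toFib p z hzp).asIdeal
  -- `s ⊆ z`
  have hsz : z ∈ zeroLocus s := by
    intro b hb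
    rw [SetLike.mem_coe, ← mem_toFib (hz := hzp), hsp]
    exact Ideal.subset_span ⟨b, hb, rfl⟩
  have hle : ∀ q : PrimeSpectrum B, comap (algebraMap R B) q = p → q ∈ zeroLocus s → z ⤳ q := by
    intro q hqp hqs
    rw [← le_iff_specializes]
    have hle : (toFib p z hzp).asIdeal ≤ (toFib p q hqp).asIdeal := by
      rw [hsp, Ideal.span_le]
      rintro _ ⟨b, hb, rfl⟩
      exact mem_toFib.mpr (hqs hb)
    intro b hb
    exact mem_toFib.mp (hle (mem_toFib.mpr hb))
  let I : Ideal B := Ideal.span s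
  have hIfg : I.FG := ⟨hs.toFinset, by simp [I]⟩
  let C := B ⧸ I
  have hCfp : Algebra.FinitePresentation R C := .quotient hIfg
  -- `f` is a nonzerodivisor on the fibre of `C`
  have hinj : MulInj R (Ideal.Quotient.mk I c.f : C) p.asIdeal.ResidueField := by
    rw [mulInj_iff]
    intro y hy
    let g : p.asIdeal.Fiber B →ₐ[p.asIdeal.ResidueField] p.asIdeal.ResidueField ⊗[R] C :=
      Algebra.TensorProduct.map (AlgHom.id _ _) (Ideal.Quotient.mkₐ R I)
    have hg : Function.Surjective g :=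
      LinearMap.lTensor_surjective _ (g := (Ideal.Quotient.mkₐ R I).toLinearMap)
        Ideal.Quotient.mk_surjective
    have hker : ∀ w, g w = 0 ↔ w ∈ (toFib p z hzp).asIdeal := by
      intro w
      have h1 := Algebra.TensorProduct.lTensor_ker (R := R) (A := p.asIdeal.ResidueField)
        (Ideal.Quotient.mkₐ R I) Ideal.Quotient.mk_surjective
      have h2 : g w = 0 ↔ w ∈ RingHom.ker (Algebra.TensorProduct.map
          (AlgHom.id R p.asIdeal.ResidueField) (Ideal.Quotient.mkₐ R I)) := Iff.rfl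
      rw [h2, h1, hsp]
      have h3 : RingHom.ker (Ideal.Quotient.mkₐ R I) = I := Ideal.mk_ker
      rw [h3, Ideal.map_span]
      rfl
    obtain ⟨w, rfl⟩ := hg y
    have h4 : g ((1 ⊗ₜ[R] c.f) * w) = 0 := by
      rw [map_mul, ← hy]
      rfl
    rw [hker] at h4 ⊢
    exact ((toFib p z hzp).2.mem_or_mem h4).resolve_left fun h ↦ hzf (mem_toFib.mp h)
  obtain ⟨V₀, hV₀, hpV₀, hV₀'⟩ := exists_isConstructible_mulInj _ p hinj
  have hZs : IsConstructible (zeroLocus s) := isConstructible_zeroLocus_of_finite hs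
  have hfc : IsConstructible (basicOpen c.f : Set (PrimeSpectrum B)) :=
    (PrimeSpectrum.isCompact_basicOpen c.f).isConstructible (PrimeSpectrum.basicOpen c.f).isOpen
  have hT' := isConstructible_comap_image hfp ((hZs.inter hfc).sdiff hZ)
  refine ⟨s, hs, fun q hqp ↦ ⟨hle q hqp, fun h ↦ h.mem_closed (isClosed_zeroLocus s) hsz⟩,
    V₀ ∩ (comap (algebraMap R B) '' ((zeroLocus s ∩ basicOpen c.f) \ S.toSet))ᶜ,
    hV₀.inter hT'.compl, ⟨hpV₀, ?_⟩, ?_⟩
  · rintro ⟨q, ⟨⟨hqs, hqf⟩, hqZ⟩, hqp⟩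
    refine hqZ (Set.mem_iUnion₂.mpr ⟨c, hc, ?_, ?_⟩)
    · -- `z ≤ q`
      have := (le_iff_specializes _ _).mpr (hle q hqp hqs)
      intro b hb
      exact this (hzg hb)
    · simpa using hqf
  · rintro t ⟨htV₀, hT⟩ x' hx's hx't
    have hm := hV₀' t htV₀
    -- the point of `Spec C`
    obtain ⟨xC, rfl⟩ : x' ∈ Set.range (comap (Ideal.Quotient.mk I)) := by
      rw [range_comap_of_surjective _ _ Ideal.Quotient.mk_surjective, Ideal.mk_ker,
        PrimeSpectrum.zeroLocus_span]
      exact hx's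
    have hxC : comap (algebraMap R C) xC = t := hx't
    obtain ⟨q, hq, hqx⟩ := Ideal.exists_minimalPrimes_le (bot_le (a := (toFib t xC hxC).asIdeal))
    have hq' : q ∈ minimalPrimes (t.asIdeal.Fiber C) := hq
    let qt : PrimeSpectrum (t.asIdeal.Fiber C) := ⟨q, hq.1.1⟩
    have hqt : qt ⤳ toFib t xC hxC := (le_iff_specializes _ _).mp hqx
    have hnz : (1 : t.asIdeal.ResidueField) ⊗ₜ[R] (Ideal.Quotient.mk I c.f : C) ∈
        nonZeroDivisors (t.asIdeal.Fiber C) := by
      rw [mulInj_iff] at hm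
      rw [mem_nonZeroDivisors_iff]
      exact ⟨fun y hy ↦ hm y hy, fun y hy ↦ hm y (by rwa [mul_comm])⟩
    have hnq := (Set.disjoint_right.mp (Ideal.disjoint_nonZeroDivisors_of_mem_minimalPrimes hq')) hnz
    let ιC := (Algebra.TensorProduct.includeRight (R := R) (A := t.asIdeal.ResidueField)
      (B := C)).toRingHom
    let zC : PrimeSpectrum C := comap ιC qt
    let z' : PrimeSpectrum B := comap (Ideal.Quotient.mk I) zC
    have hzC : comap (algebraMap R C) zC = t := comap_comap_includeRight t qt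
    have hz't : comap (algebraMap R B) z' = t := hzC
    have hz'x : z' ⤳ comap (Ideal.Quotient.mk I) xC := by
      have h1 : zC ⤳ xC := by
        have := hqt.map (continuous_comap ιC)
        rwa [comap_toFib] at this
      exact h1.map (continuous_comap (Ideal.Quotient.mk I))
    have hz's : z' ∈ zeroLocus s := by
      intro b hb
      have : Ideal.Quotient.mk I b = 0 := Ideal.Quotient.eq_zero_iff_mem.mpr (Ideal.subset_span hb)
      change Ideal.Quotient.mk I b ∈ zC.asIdeal
      rw [this]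
      exact zC.asIdeal.zero_mem
    have hz'Z : z' ∈ S.toSet := by
      by_contra h
      exact hT ⟨z', ⟨⟨hz's, hnq⟩, h⟩, hz't⟩
    exact ⟨z', hz'Z, hz'x, hz't⟩

/-- The locus where `Z'_p` is in the closure of `Z_p` in the fibre (in terms of specializations). -/
def denseLocus (R : Type u) {B : Type u} [CommRing R] [CommRing B] [Algebra R B]
    (Z Z' : Set (PrimeSpectrum B)) : Set (PrimeSpectrum R) :=
  {p | ∀ x ∈ Z', comap (algebraMap R B) x = p → ∃ z ∈ Z, z ⤳ x ∧ comap (algebraMap R B) z = p}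

/-- The trace on the fibre over `p`. -/
theorem exists_finite_generic [Algebra.FinitePresentation R B] {Z : Set (PrimeSpectrum B)}
    (hZ : IsConstructible Z) (p : PrimeSpectrum R) :
    ∃ T : Set (PrimeSpectrum B), T.Finite ∧ (∀ z ∈ T, z ∈ Z ∧ comap (algebraMap R B) z = p) ∧
      ∀ x ∈ Z, comap (algebraMap R B) x = p → ∃ z ∈ T, z ⤳ x := by
  let F := p.asIdeal.Fiber B
  have hN : IsNoetherianRing F := Algebra.FiniteType.isNoetherianRing p.asIdeal.ResidueField _
  let ι := (Algebra.TensorProduct.includeRight (R := R) (A := p.asIdeal.ResidueField)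
    (B := B)).toRingHom
  have hZF : IsConstructible (comap ι ⁻¹' Z) := isConstructible_preimage_comap ι hZ
  obtain ⟨J, hJ⟩ := (isClosed_iff_zeroLocus_ideal _).mp
    (isClosed_closure (s := (comap ι ⁻¹' Z : Set (PrimeSpectrum F))))
  have hfin : {q : PrimeSpectrum F | q.asIdeal ∈ J.minimalPrimes}.Finite := by
    refine Set.Finite.preimage ?_ J.finite_minimalPrimes_of_isNoetherianRing
    exact fun _ _ _ _ h ↦ PrimeSpectrum.ext h
  refine ⟨comap ι '' {q : PrimeSpectrum F | q.asIdeal ∈ J.minimalPrimes}, hfin.image _, ?_, ?_⟩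
  · rintro _ ⟨q, hq, rfl⟩
    refine ⟨?_, comap_comap_includeRight p q⟩
    have h1 : q ∈ closure (comap ι ⁻¹' Z) := by
      rw [hJ]
      exact hq.1.2
    obtain ⟨ξ, hξ, hξq⟩ := exists_specializes_of_mem_closure hZF h1
    have h2 : ξ ∈ closure (comap ι ⁻¹' Z) := subset_closure hξ
    rw [hJ] at h2
    have h3 : ξ = q := by
      apply PrimeSpectrum.ext
      have h4 := (le_iff_specializes _ _).mpr hξq
      exact le_antisymm h4 (hq.2 ⟨ξ.2, h2⟩ h4)
    rw [← h3]
    exact hξ
  · intro x hx hxp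
    have h1 : toFib p x hxp ∈ closure (comap ι ⁻¹' Z) := by
      apply subset_closure
      rw [Set.mem_preimage, comap_toFib]
      exact hx
    rw [hJ] at h1
    obtain ⟨q, hq, hqx⟩ := Ideal.exists_minimalPrimes_le (show J ≤ (toFib p x hxp).asIdeal from h1)
    refine ⟨_, ⟨⟨q, hq.1.1⟩, hq, rfl⟩, ?_⟩
    have h2 : (⟨q, hq.1.1⟩ : PrimeSpectrum F) ⤳ toFib p x hxp := (le_iff_specializes _ _).mp hqx
    have := h2.map (continuous_comap ι)
    rwa [comap_toFib] at this

/-- Spreading out of the fibrewise closure of a constructible set: near `p` (in the constructible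
topology of the base) the closures of the fibres of `Z` are the fibres of a closed constructible `W`. -/
theorem exists_closure_spread [Algebra.FinitePresentation R B] {Z : Set (PrimeSpectrum B)}
    (hZ : IsConstructible Z) (p : PrimeSpectrum R) :
    ∃ (W : Set (PrimeSpectrum B)) (V : Set (PrimeSpectrum R)), IsConstructible W ∧ IsClosed W ∧
      IsConstructible V ∧ p ∈ V ∧
      ∀ t ∈ V, ∀ x : PrimeSpectrum B, comap (algebraMap R B) x = t →
        (x ∈ W ↔ ∃ z ∈ Z, z ⤳ x ∧ comap (algebraMap R B) z = t) := by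
  have hfp := RingHom.finitePresentation_algebraMap.mpr
    (inferInstance : Algebra.FinitePresentation R B)
  obtain ⟨T, hT, hTZ, hTx⟩ := exists_finite_generic hZ p
  have h1 : ∀ z : PrimeSpectrum B, ∃ (s : Set B) (V : Set (PrimeSpectrum R)), s.Finite ∧
      IsConstructible V ∧ p ∈ V ∧ (z ∈ T →
        (∀ q : PrimeSpectrum B, comap (algebraMap R B) q = p → (q ∈ zeroLocus s ↔ z ⤳ q)) ∧
        ∀ t ∈ V, ∀ x : PrimeSpectrum B, x ∈ zeroLocus s → comap (algebraMap R B) x = t →
          ∃ z' ∈ Z, z' ⤳ x ∧ comap (algebraMap R B) z' = t) := by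
    intro z
    by_cases hz : z ∈ T
    · obtain ⟨s, hs, h2, V, hV, hpV, h3⟩ := exists_spread hZ (hTZ z hz).1 (hTZ z hz).2
      exact ⟨s, V, hs, hV, hpV, fun _ ↦ ⟨h2, h3⟩⟩
    · exact ⟨∅, Set.univ, Set.finite_empty, .univ, trivial, fun h ↦ (hz h).elim⟩
  choose s V hs hV hpV H using h1
  let W : Set (PrimeSpectrum B) := ⋃ z ∈ T, zeroLocus (s z)
  have hW : IsConstructible W := .biUnion hT fun z _ ↦ isConstructible_zeroLocus_of_finite (hs z)
  have hWcl : IsClosed W := hT.isClosed_biUnion fun z _ ↦ isClosed_zeroLocus _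
  have hWp : ∀ q : PrimeSpectrum B, comap (algebraMap R B) q = p → (q ∈ W ↔ ∃ z ∈ T, z ⤳ q) := by
    intro q hq
    simp only [W, Set.mem_iUnion]
    constructor
    · rintro ⟨z, hz, h⟩
      exact ⟨z, hz, ((H z hz).1 q hq).mp h⟩
    · rintro ⟨z, hz, h⟩
      exact ⟨z, hz, ((H z hz).1 q hq).mpr h⟩
  let V₁ : Set (PrimeSpectrum R) := (⋂ z ∈ T, V z) ∩ (comap (algebraMap R B) '' (Z \ W))ᶜ
  have hV₁ : IsConstructible V₁ := .inter (.biInter hT fun z _ ↦ hV z)
    (isConstructible_comap_image hfp (hZ.sdiff hW)).compl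
  have hpV₁ : p ∈ V₁ := by
    refine ⟨Set.mem_iInter₂.mpr fun z _ ↦ hpV z, ?_⟩
    rintro ⟨q, ⟨hqZ, hqW⟩, hqp⟩
    exact hqW ((hWp q hqp).mpr (hTx q hqZ hqp))
  refine ⟨W, V₁, hW, hWcl, hV₁, hpV₁, fun t ht x hxt ↦ ?_⟩
  constructor
  · intro hx
    obtain ⟨z, hz, hxz⟩ := Set.mem_iUnion₂.mp hx
    exact (H z hz).2 t (Set.mem_iInter₂.mp ht.1 z hz) x hxz hxt
  · rintro ⟨z, hz, hzx, hzt⟩
    refine hzx.mem_closed hWcl ?_
    by_contra h
    exact ht.2 ⟨z, ⟨hz, h⟩, hzt⟩

/-- The set of points `p` such that the trace of `Z'` on the fibre over `p` is contained in the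
closure of that of `Z` is constructible. -/
theorem isConstructible_denseLocus [Algebra.FinitePresentation R B] {Z Z' : Set (PrimeSpectrum B)}
    (hZ : IsConstructible Z) (hZ' : IsConstructible Z') : IsConstructible (denseLocus R Z Z') := by
  have hfp := RingHom.finitePresentation_algebraMap.mpr
    (inferInstance : Algebra.FinitePresentation R B)
  refine isConstructible_of_forall_exists _ fun p ↦ ?_
  obtain ⟨W, V₁, hW, -, hV₁, hpV₁, hclos⟩ := exists_closure_spread hZ p
  refine ⟨V₁, hV₁, hpV₁, ?_⟩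
  have : V₁ ∩ denseLocus R Z Z' = V₁ ∩ (comap (algebraMap R B) '' (Z' \ W))ᶜ := by
    ext t
    refine and_congr_right fun ht ↦ ?_
    constructor
    · rintro h ⟨x, ⟨hx, hxW⟩, hxt⟩
      exact hxW ((hclos t ht x hxt).mpr (h x hx hxt))
    · intro h x hx hxt
      refine (hclos t ht x hxt).mp ?_
      by_contra hxW
      exact h ⟨x, ⟨hx, hxW⟩, hxt⟩
  rw [this]
  exact hV₁.inter (isConstructible_comap_image hfp (hZ'.sdiff hW)).compl

/-- The locus where `Z_p` is locally closed in the fibre, i.e. `closure Z_p \ Z_p` is closed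
(in terms of specializations). -/
def locClosedLocus (R : Type u) {B : Type u} [CommRing R] [CommRing B] [Algebra R B]
    (Z : Set (PrimeSpectrum B)) : Set (PrimeSpectrum R) :=
  {p | ∀ z w x : PrimeSpectrum B, z ∈ Z → w ∉ Z → x ∈ Z → z ⤳ w → w ⤳ x →
    comap (algebraMap R B) z = p → comap (algebraMap R B) w = p → comap (algebraMap R B) x ≠ p}

/-- The set of points `p` such that the trace of `Z` on the fibre over `p` is locally closed is
constructible. -/
theorem isConstructible_locClosedLocus [Algebra.FinitePresentation R B]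
    {Z : Set (PrimeSpectrum B)} (hZ : IsConstructible Z) :
    IsConstructible (locClosedLocus R Z) := by
  refine isConstructible_of_forall_exists _ fun p ↦ ?_
  obtain ⟨W, V₁, hW, hWcl, hV₁, hpV₁, hclos⟩ := exists_closure_spread hZ p
  refine ⟨V₁, hV₁, hpV₁, ?_⟩
  have : V₁ ∩ locClosedLocus R Z = V₁ ∩ closedLocus R (W \ Z) := by
    ext t
    refine and_congr_right fun ht ↦ ?_
    constructor
    · rintro h w x ⟨hwW, hwZ⟩ hwx hwt hxt
      refine ⟨hwx.mem_closed hWcl hwW, fun hxZ ↦ ?_⟩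
      obtain ⟨z, hz, hzw, hzt⟩ := (hclos t ht w hwt).mp hwW
      exact h z w x hz hwZ hxZ hzw hwx hzt hwt hxt
    · intro h z w x hz hw hx hzw hwx hzt hwt hxt
      exact (h w x ⟨(hclos t ht w hwt).mpr ⟨z, hz, hzw, hzt⟩, hw⟩ hwx hwt hxt).2 hx
  rw [this]
  exact hV₁.inter (isConstructible_closedLocus (hW.sdiff hZ))

end Groth.Agent.Ega4fib.H146.DenseLocus
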