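import Groth.Agent.Ega4fib.H146.DenseLocus
import Groth.Agent.Flat2D.AffData
import Groth.Agent.Ega43.LocusElem

/-!
# The locus where the fibres of a constructible set are dense in those of another one, schemes

* `isLocallyConstructible_setOf_subset_closure`
* `isLocallyConstructible_locus_isDominant`
-/

set_option autoImplicit false
universe u
open CategoryTheory AlgebraicGeometry CategoryTheory.Limits Topology

namespace Groth.Agent.Ega4fib.H146.DenseLocusSch

open Groth.Agent.Ega43.ClosedLocus Groth.Agent.Ega4fib.H146.DenseLocus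
  Groth.Agent.Ega43.Locus Groth.Agent.Ega43.LocusElem

/-- A point in the closure of the image of `Spec` is a specialization of a point of the image. -/
theorem exists_specializes_of_mem_closure_range {R S : Type*} [CommRing R] [CommRing S]
    (f : R →+* S) {x : PrimeSpectrum R} (hx : x ∈ closure (Set.range (PrimeSpectrum.comap f))) :
    ∃ y : PrimeSpectrum S, PrimeSpectrum.comap f y ⤳ x := by
  rw [PrimeSpectrum.closure_range_comap] at hx
  have hle : RingHom.ker f ≤ x.asIdeal := hx
  obtain ⟨p, hp, hpx⟩ := Ideal.exists_minimalPrimes_le hle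
  obtain ⟨q, hq, -, hqp⟩ := Ideal.exists_comap_eq_of_mem_minimalPrimes (I := (⊥ : Ideal S)) f p hp
  refine ⟨⟨q, hq⟩, ?_⟩
  rw [← PrimeSpectrum.le_iff_specializes]
  change Ideal.comap f q ≤ x.asIdeal
  rw [hqp]
  exact hpx

/-- Closure of the trace of a constructible set on a fibre, in the total space. -/
theorem exists_specializes_of_mem_closure_fibre {R B : Type u} [CommRing R] [CommRing B]
    [Algebra R B] {Z : Set (PrimeSpectrum B)} (hZ : IsConstructible Z) {p : PrimeSpectrum R}
    {x : PrimeSpectrum B}
    (hx : x ∈ closure (Z ∩ PrimeSpectrum.comap (algebraMap R B) ⁻¹' {p})) :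
    ∃ z ∈ Z, z ⤳ x ∧ PrimeSpectrum.comap (algebraMap R B) z = p := by
  let ι := (Algebra.TensorProduct.includeRight (R := R) (A := p.asIdeal.ResidueField)
    (B := B)).toRingHom
  have hZF : IsConstructible (PrimeSpectrum.comap ι ⁻¹' Z) := isConstructible_preimage_comap ι hZ
  obtain ⟨S, _, f, hf⟩ := PrimeSpectrum.exists_range_eq_of_isConstructible hZF
  have h1 : Z ∩ PrimeSpectrum.comap (algebraMap R B) ⁻¹' {p} ⊆
      Set.range (PrimeSpectrum.comap (f.comp ι)) := by
    rintro z ⟨hz, hzp'⟩
    have hzp : PrimeSpectrum.comap (algebraMap R B) z = p := hzp'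
    have h2 : toFib p z hzp ∈ Set.range (PrimeSpectrum.comap f) := by
      rw [hf, Set.mem_preimage, comap_toFib]
      exact hz
    obtain ⟨w, hw⟩ := h2
    refine ⟨w, ?_⟩
    rw [PrimeSpectrum.comap_comp_apply, hw, comap_toFib]
  obtain ⟨y, hy⟩ := exists_specializes_of_mem_closure_range _ (closure_mono h1 hx)
  refine ⟨_, ?_, hy, ?_⟩
  · rw [PrimeSpectrum.comap_comp_apply]
    have : PrimeSpectrum.comap f y ∈ PrimeSpectrum.comap ι ⁻¹' Z := hf ▸ ⟨y, rfl⟩
    exact this
  · rw [PrimeSpectrum.comap_comp_apply]
    exact comap_comap_includeRight p _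

/-- For `f` of finite presentation and `Z`, `Z'` locally constructible, the set of `s` such that
`Z'_s` is contained in the closure of `Z_s` is locally constructible. -/
theorem isLocallyConstructible_setOf_subset_closure {X S : Scheme.{u}} (f : X ⟶ S)
    [LocallyOfFinitePresentation f] [QuasiCompact f] {Z Z' : Set X}
    (hZ : IsLocallyConstructible Z) (hZ' : IsLocallyConstructible Z') :
    IsLocallyConstructible {s : S | Z' ∩ f ⁻¹' {s} ⊆ closure (Z ∩ f ⁻¹' {s})} := by
  refine Flat2D.AffData.isLocallyConstructible_of_affine fun R j _ => ?_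
  obtain ⟨ι, hι, B, g, φ, hg, h1, h2, h3⟩ :=
    Flat2D.AffData.exists_affine_data_finitePresentation f R j
  let _ := fun i => (φ i).hom.toAlgebra
  have : j ⁻¹' {s : S | Z' ∩ f ⁻¹' {s} ⊆ closure (Z ∩ f ⁻¹' {s})} =
      ⋂ i, denseLocus R (B := B i) (g i ⁻¹' Z) (g i ⁻¹' Z') := by
    ext p
    refine Iff.trans ?_ Set.mem_iInter.symm
    have hfib := fun i => Flat2D.AffData.fibre_preimage_eq f j (g i) (φ i) (h1 i) p
    constructor
    · intro h i x hx hxp
      have := hg i
      have hc : IsConstructible (g i ⁻¹' Z : Set (PrimeSpectrum (B i))) :=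
        IsLocallyConstructible.isConstructible (X := PrimeSpectrum (B i))
          (hZ.preimage_of_isOpenEmbedding (g i).isOpenEmbedding)
      have h4 : g i x ∈ Z' ∩ f ⁻¹' {j p} := by
        refine ⟨hx, ?_⟩
        have : x ∈ g i ⁻¹' (f ⁻¹' {j p}) := by rw [hfib i]; exact hxp
        exact this
      have h5 : x ∈ g i ⁻¹' (closure (Z ∩ f ⁻¹' {j p})) := h h4
      rw [(g i).isOpenEmbedding.isOpenMap.preimage_closure_eq_closure_preimage
        (g i).continuous, Set.preimage_inter, hfib i] at h5
      exact exists_specializes_of_mem_closure_fibre hc h5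
    · intro h x ⟨hx, hxp⟩
      obtain ⟨i, y, rfl⟩ := h2 x (hxp ▸ ⟨p, rfl⟩)
      have hy : y ∈ PrimeSpectrum.comap (φ i).hom ⁻¹' {p} := by
        rw [← hfib i]
        exact hxp
      obtain ⟨z, hz, hzy, hzp⟩ := h i y hx hy
      have hz' : z ∈ g i ⁻¹' (f ⁻¹' {j p}) := by rw [hfib i]; exact hzp
      exact (hzy.map (g i).continuous).mem_closed isClosed_closure (subset_closure ⟨hz, hz'⟩)
  rw [this]
  refine .iInter fun i => ?_
  have := hg i
  have hfp : Algebra.FinitePresentation R (B i) := h3 i
  exact isConstructible_denseLocus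
    (IsLocallyConstructible.isConstructible (X := PrimeSpectrum (B i))
      (hZ.preimage_of_isOpenEmbedding (g i).isOpenEmbedding))
    (IsLocallyConstructible.isConstructible (X := PrimeSpectrum (B i))
      (hZ'.preimage_of_isOpenEmbedding (g i).isOpenEmbedding))

/-- The fibre map is dominant iff the trace of the image is dense in the fibre. -/
theorem isDominant_bcMap_iff {X Y S : Scheme.{u}} (f : X ⟶ Y) (g : Y ⟶ S) (s : S) :
    IsDominant (bcMap f g (S.fromSpecResidueField s)) ↔
      Set.univ ∩ g ⁻¹' {s} ⊆ closure (Set.range f ∩ g ⁻¹' {s}) := by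
  have he : IsEmbedding (pullback.fst g (S.fromSpecResidueField s)) :=
    (pullback.fst g (S.fromSpecResidueField s)).isEmbedding
  have h1 : Set.range (pullback.fst g (S.fromSpecResidueField s)) = g ⁻¹' {s} := by
    rw [Scheme.Pullback.range_fst, Scheme.range_fromSpecResidueField]
  rw [isDominant_iff, DenseRange, dense_iff_closure_eq, range_bcMap,
    he.closure_eq_preimage_closure_image, Set.image_preimage_eq_inter_range, h1,
    Set.preimage_eq_univ_iff, h1, Set.univ_inter]

/-- The locus where the fibre map is dominant. -/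
theorem isLocallyConstructible_locus_isDominant {X Y S : Scheme.{u}} (f : X ⟶ Y) (g : Y ⟶ S)
    [LocallyOfFinitePresentation g] [QuasiCompact g]
    [LocallyOfFinitePresentation f] [QuasiCompact f] :
    IsLocallyConstructible (locus @IsDominant f g) := by
  have h1 : IsLocallyConstructible (Set.range f) := by
    simpa using f.isLocallyConstructible_image (s := Set.univ) (by simp)
  have h2 := isLocallyConstructible_setOf_subset_closure g h1
    (Z' := Set.univ) (by simp)
  convert h2 using 1
  ext s
  exact isDominant_bcMap_iff f g s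

end Groth.Agent.Ega4fib.H146.DenseLocusSch
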