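import Groth.Agent.Ega4fib.H146.DenseLocusSch
import Groth.Agent.Ega43.LocusClosedImm
import Mathlib.AlgebraicGeometry.Morphisms.Immersion

/-!
# The locus of fibre maps which are immersions is locally constructible
-/

set_option autoImplicit false
universe u
open CategoryTheory AlgebraicGeometry CategoryTheory.Limits Topology

namespace Groth.Agent.Ega4fib.H146.LocusImm

open Groth.Agent.Ega43.ClosedLocus Groth.Agent.Ega4fib.H146.DenseLocus
  Groth.Agent.Ega43.Locus Groth.Agent.Ega43.LocusElem Groth.Agent.Ega43.LocusAff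
  Groth.Agent.Ega43.ConsCrit

variable {X Y S T : Scheme.{u}}

/-- Restriction of loci to opens, for properties only stable under isomorphisms. -/
theorem locus_bcMap_of_isOpenImmersion (P : MorphismProperty Scheme.{u}) [P.RespectsIso]
    (f : X ⟶ Y) (g : Y ⟶ S) (t : T ⟶ S) [IsOpenImmersion t] :
    locus P (bcMap f g t) (pullback.snd g t) = t ⁻¹' (locus P f g) := by
  ext x
  have h1 : IsPullback (pullback.fst (pullback.snd g t) (T.fromSpecResidueField x) ≫
        pullback.fst g t)
      (pullback.snd (pullback.snd g t) (T.fromSpecResidueField x)) g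
      (Spec.map (t.residueFieldMap x) ≫ S.fromSpecResidueField (t x)) := by
    rw [Scheme.Hom.SpecMap_residueFieldMap_fromSpecResidueField]
    exact (IsPullback.of_hasPullback _ (T.fromSpecResidueField x)).paste_horiz
      (IsPullback.of_hasPullback g t)
  have h2 : IsPullback (pullback.fst (bcMap f g t ≫ pullback.snd g t)
        (T.fromSpecResidueField x) ≫ pullback.fst (f ≫ g) t)
      (bcMap (bcMap f g t) (pullback.snd g t) (T.fromSpecResidueField x)) f
      (pullback.fst (pullback.snd g t) (T.fromSpecResidueField x) ≫ pullback.fst g t) :=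
    (isPullback_bcMap _ _ (T.fromSpecResidueField x)).paste_horiz (isPullback_bcMap f g t)
  obtain ⟨w, v, -, -, h3, h4⟩ := exists_comparison h1 h2
  have : IsIso w := h3.isIso_snd_of_isIso
  have : IsIso v := h4.isIso_fst_of_isIso
  exact P.arrow_mk_iso_iff (Arrow.isoMk (asIso v) (asIso w) h4.w)

/-- Localization on `S`, for properties only stable under isomorphisms. -/
theorem isLocallyConstructible_locus_of_affine (P : MorphismProperty Scheme.{u}) [P.RespectsIso]
    (f : X ⟶ Y) (g : Y ⟶ S)
    (H : ∀ (A : CommRingCat.{u}) (t : Spec A ⟶ S) [IsOpenImmersion t],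
      IsConstructible (locus P (bcMap f g t) (pullback.snd g t))) :
    IsLocallyConstructible (locus P f g) := by
  refine Flat2D.AffData.isLocallyConstructible_of_affine fun A t _ => ?_
  rw [← locus_bcMap_of_isOpenImmersion]
  exact H A t

/-- The locus of the restriction of `f` over `j : U ⟶ Y`. -/
theorem mem_locus_pullback_iff {U : Scheme.{u}} (P : MorphismProperty Scheme.{u}) [P.RespectsIso]
    (f : X ⟶ Y) (g : Y ⟶ S) (j : U ⟶ Y) (s : S) :
    s ∈ locus P (pullback.snd f j) (j ≫ g) ↔
      P (pullback.snd (bcMap f g (S.fromSpecResidueField s))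
        (pullback.fst (pullback.fst g (S.fromSpecResidueField s)) j)) := by
  let k := S.fromSpecResidueField s
  have h1 : IsPullback (pullback.snd (pullback.fst g k) j)
      (pullback.fst (pullback.fst g k) j ≫ pullback.snd g k) (j ≫ g) k :=
    (IsPullback.of_hasPullback (pullback.fst g k) j).flip.paste_vert
      (IsPullback.of_hasPullback g k)
  have h2 : IsPullback (pullback.fst (bcMap f g k) (pullback.fst (pullback.fst g k) j) ≫
        pullback.fst (f ≫ g) k)
      (pullback.snd (bcMap f g k) (pullback.fst (pullback.fst g k) j)) f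
      (pullback.snd (pullback.fst g k) j ≫ j) := by
    rw [← pullback.condition (f := pullback.fst g k)]
    exact (IsPullback.of_hasPullback (bcMap f g k)
      (pullback.fst (pullback.fst g k) j)).paste_horiz (isPullback_bcMap f g k)
  obtain ⟨v, h3⟩ : ∃ v, IsPullback v
      (pullback.snd (bcMap f g k) (pullback.fst (pullback.fst g k) j))
      (pullback.snd f j) (pullback.snd (pullback.fst g k) j) :=
    ⟨_, IsPullback.of_right' h2 (IsPullback.of_hasPullback f j)⟩
  exact mem_locus_iff_of_isPullback h1 h3

/-- If the range of `f` is the trace on an open subscheme `j : U ⟶ Y` of a closed set then `f` is an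
immersion iff its restriction over `U` is a closed immersion. -/
theorem isImmersion_iff_of_range {U : Scheme.{u}} (f : X ⟶ Y) (j : U ⟶ Y) [IsOpenImmersion j]
    {W : Set Y} (hW : IsClosed W) (h : Set.range f = W ∩ Set.range j) :
    IsImmersion f ↔ IsClosedImmersion (pullback.snd f j) := by
  have h1 : Set.range (pullback.snd f j) = j ⁻¹' W := by
    rw [Scheme.Pullback.range_snd, h, Set.preimage_inter, Set.preimage_range, Set.inter_univ]
  constructor
  · intro hf
    have h2 : IsPreimmersion (pullback.snd f j) := inferInstance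
    refine .of_isPreimmersion _ ?_
    rw [h1]
    exact hW.preimage j.continuous
  · intro hf
    have h3 : Surjective (pullback.fst f j) := by
      rw [surjective_iff, ← Set.range_eq_univ, Scheme.Pullback.range_fst, Set.preimage_eq_univ_iff,
        h]
      exact Set.inter_subset_right
    have h4 : IsIso (pullback.fst f j) :=
      (isIso_iff_isOpenImmersion_and_surjective _).mpr ⟨inferInstance, h3⟩
    have h5 : f = inv (pullback.fst f j) ≫ pullback.snd f j ≫ j := by
      rw [IsIso.eq_inv_comp, pullback.condition]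
    rw [h5]
    infer_instance

/-- The closure of a constructible subset of a fibre; affine case. -/
theorem isConstructible_locus_isImmersion_Spec {R B : CommRingCat.{u}} (f : X ⟶ Spec B)
    (g : Spec B ⟶ Spec R) (hg : FP g) (hfg : FP (f ≫ g)) :
    IsConstructible (locus @IsImmersion f g) := by
  obtain ⟨φ, rfl⟩ := Spec.map_surjective g
  have hf : FP f := hfg.of_comp hg
  have := hf.lfp
  have := hf.qc
  have hφ := (fp_SpecMap_iff φ).mp hg
  algebraize [φ.hom]
  have hZ : IsConstructible (Set.range f : Set (PrimeSpectrum B)) := by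
    have : CompactSpace X := QuasiCompact.compactSpace_of_compactSpace f
    rw [← Set.image_univ]
    exact f.isConstructible_image .univ
  set Z : Set (PrimeSpectrum B) := Set.range f with hZdef
  let E : Set (PrimeSpectrum R) := locus @IsImmersion f (Spec.map φ)
  change IsConstructible E
  refine isConstructible_of_forall_exists E fun p ↦ ?_
  -- the embedding of the fibre
  have he : ∀ t : PrimeSpectrum R, IsEmbedding
      (pullback.fst (Spec.map φ) ((Spec R).fromSpecResidueField t)) := fun t ↦
    (pullback.fst (Spec.map φ) ((Spec R).fromSpecResidueField t)).isEmbedding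
  have her : ∀ t : PrimeSpectrum R, Set.range
      (pullback.fst (Spec.map φ) ((Spec R).fromSpecResidueField t)) =
        PrimeSpectrum.comap (algebraMap R B) ⁻¹' {t} := fun t ↦ by
    rw [Scheme.Pullback.range_fst, Scheme.range_fromSpecResidueField]
    rfl
  have hr : ∀ t : PrimeSpectrum R, Set.range (bcMap f (Spec.map φ)
      ((Spec R).fromSpecResidueField t)) =
        (pullback.fst (Spec.map φ) ((Spec R).fromSpecResidueField t)) ⁻¹' Z := fun t ↦
    range_bcMap _ _ _
  have hE : E ⊆ locClosedLocus R Z := by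
    intro t (ht : IsImmersion (bcMap f (Spec.map φ) ((Spec R).fromSpecResidueField t)))
      z w x hz hw hx hzw hwx hzt hwt hxt
    have h1 := (bcMap f (Spec.map φ) ((Spec R).fromSpecResidueField t)).isLocallyClosed_range
    rw [hr] at h1
    obtain ⟨A, C, hA, hC, hAC⟩ := h1
    obtain ⟨z, rfl⟩ : z ∈ Set.range
      (pullback.fst (Spec.map φ) ((Spec R).fromSpecResidueField t)) := by rw [her]; exact hzt
    obtain ⟨w, rfl⟩ : w ∈ Set.range
      (pullback.fst (Spec.map φ) ((Spec R).fromSpecResidueField t)) := by rw [her]; exact hwt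
    obtain ⟨x, rfl⟩ : x ∈ Set.range
      (pullback.fst (Spec.map φ) ((Spec R).fromSpecResidueField t)) := by rw [her]; exact hxt
    have hzw' : z ⤳ w := (he t).specializes_iff.mp hzw
    have hwx' : w ⤳ x := (he t).specializes_iff.mp hwx
    have hz' : z ∈ A ∩ C := hAC ▸ hz
    have hx' : x ∈ A ∩ C := hAC ▸ hx
    have hw' : w ∈ A ∩ C := ⟨hwx'.mem_open hA hx'.1, hzw'.mem_closed hC hz'.2⟩
    rw [← hAC] at hw'
    exact hw hw'
  by_cases hp : p ∈ locClosedLocus R Z
  swap
  · refine ⟨(locClosedLocus R Z)ᶜ, (isConstructible_locClosedLocus hZ).compl, hp, ?_⟩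
    have : (locClosedLocus R Z)ᶜ ∩ E = ∅ := by
      ext t
      simp only [Set.mem_inter_iff, Set.mem_compl_iff, Set.mem_empty_iff_false, iff_false, not_and]
      exact fun h1 h2 ↦ h1 (hE h2)
    rw [this]
    exact .empty
  obtain ⟨W, V₁, hW, hWcl, hV₁, hpV₁, hclos⟩ := exists_closure_spread hZ p
  obtain ⟨W', V₂, hW', hWcl', hV₂, hpV₂, hclos'⟩ := exists_closure_spread (hW.sdiff hZ) p
  -- `W' = W \ Z` over `V`
  let V := (V₁ ∩ V₂) ∩ locClosedLocus R Z
  have hV : IsConstructible V := (hV₁.inter hV₂).inter (isConstructible_locClosedLocus hZ)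
  have hWW' : ∀ t ∈ V, ∀ x : PrimeSpectrum B, PrimeSpectrum.comap (algebraMap R B) x = t →
      (x ∈ W' ↔ x ∈ W \ Z) := by
    rintro t ⟨⟨ht1, ht2⟩, ht3⟩ x hx
    rw [hclos' t ht2 x hx]
    constructor
    · rintro ⟨w, ⟨hw, hwZ⟩, hwx, hwt⟩
      refine ⟨hwx.mem_closed hWcl hw, fun hxZ ↦ ?_⟩
      obtain ⟨z, hz, hzw, hzt⟩ := (hclos t ht1 w hwt).mp hw
      exact ht3 z w x hz hwZ hxZ hzw hwx hzt hwt hx
    · exact fun h ↦ ⟨x, h, specializes_rfl, hx⟩
  let U : (Spec B).Opens := ⟨W'ᶜ, hWcl'.isOpen_compl⟩
  have hU : IsCompact (U : Set (Spec B)) := by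
    have h1 : IsConstructible (W'ᶜ) := hW'.compl
    obtain ⟨_, _, ψ, hψ⟩ := PrimeSpectrum.exists_range_eq_of_isConstructible h1
    change IsCompact (W'ᶜ : Set (PrimeSpectrum B))
    rw [← hψ]
    exact isCompact_range (PrimeSpectrum.continuous_comap ψ)
  have hUqc : QuasiCompact U.ι := by
    have : CompactSpace U := isCompact_iff_compactSpace.mp hU
    exact (quasiCompact_iff_compactSpace U.ι).mpr this
  have hUFP : FP (U.ι ≫ Spec.map φ) := (FP.of_isOpenImmersion_of_qc hUqc).comp hg
  have hfU : FP (pullback.snd f U.ι ≫ U.ι ≫ Spec.map φ) := (hf.snd U.ι).comp hUFP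
  have hC : IsConstructible (locus @IsClosedImmersion (pullback.snd f U.ι) (U.ι ≫ Spec.map φ) :
      Set (PrimeSpectrum R)) :=
    IsLocallyConstructible.isConstructible (X := PrimeSpectrum R)
      (Ega43.LocusClosedImm.isLocallyConstructible_locus_isClosedImmersion _ _ hUFP hfU)
  refine ⟨V, hV, ⟨⟨hpV₁, hpV₂⟩, hp⟩, ?_⟩
  have : V ∩ E = V ∩ (locus @IsClosedImmersion (pullback.snd f U.ι) (U.ι ≫ Spec.map φ) :
      Set (PrimeSpectrum R)) := by
    ext t
    refine and_congr_right fun ht ↦ ?_
    refine Iff.trans ?_ (mem_locus_pullback_iff @IsClosedImmersion f (Spec.map φ) U.ι t).symm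
    refine isImmersion_iff_of_range _ _ (W := (pullback.fst (Spec.map φ)
      ((Spec R).fromSpecResidueField t)) ⁻¹' W) (hWcl.preimage (Scheme.Hom.continuous _)) ?_
    rw [hr, Scheme.Pullback.range_fst, Scheme.Opens.range_ι]
    ext y
    have hy : PrimeSpectrum.comap (algebraMap R B)
        (pullback.fst (Spec.map φ) ((Spec R).fromSpecResidueField t) y) = t := by
      have : pullback.fst (Spec.map φ) ((Spec R).fromSpecResidueField t) y ∈
        PrimeSpectrum.comap (algebraMap R B) ⁻¹' {t} := by rw [← her]; exact ⟨y, rfl⟩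
      exact this
    have h1 := hWW' t ht _ hy
    have h2 := hclos t ht.1.1 _ hy
    change pullback.fst (Spec.map φ) ((Spec R).fromSpecResidueField t) y ∈ Z ↔
      pullback.fst (Spec.map φ) ((Spec R).fromSpecResidueField t) y ∈ W ∧
      pullback.fst (Spec.map φ) ((Spec R).fromSpecResidueField t) y ∉ W'
    constructor
    · intro h
      exact ⟨h2.mpr ⟨_, h, specializes_rfl, hy⟩, fun h' ↦ (h1.mp h').2 h⟩
    · rintro ⟨h, h'⟩
      by_contra hc
      exact h' (h1.mpr ⟨h, hc⟩)
  rw [this]
  exact hV.inter hC

/-- The locus of fibre maps which are immersions is locally constructible. -/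
theorem isLocallyConstructible_locus_isImmersion (f : X ⟶ Y) (g : Y ⟶ S) (hg : FP g)
    (hfg : FP (f ≫ g)) : IsLocallyConstructible (locus @IsImmersion f g) := by
  refine isLocallyConstructible_locus_of_affine @IsImmersion f g fun A t _ ↦ ?_
  refine isConstructible_of_Spec_target
    (fun f g hg hfg ↦ isConstructible_locus_isImmersion_Spec f g hg hfg) _ _ (hg.snd t) ?_
  rw [pullback.lift_snd]
  exact hfg.snd t

end Groth.Agent.Ega4fib.H146.LocusImm
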